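import Cfsg.Agent.H49.McLFive
import Cfsg.Agent.H49.JFourEleven

/-!
# The Sylow `5`-subgroups of `McL` and the Sylow `11`-subgroups of `J4` are not abelian (helper135)
-/

set_option autoImplicit false
set_option maxRecDepth 20000

namespace Cfsg.Agent.H135.RK

open Cfsg

universe u

/-- two elements of order `p` which do not commute, with central commutator, give a nonabelian Sylow subgroup -/
theorem nonab_of {G : Type*} [Group G] [Finite G] {p : ℕ} [Fact p.Prime] {x y : G} (hx : x ^ p = 1) (hy : y ^ p = 1)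
    (h1 : x * y * x⁻¹ * y⁻¹ * x = x * (x * y * x⁻¹ * y⁻¹)) (h2 : x * y * x⁻¹ * y⁻¹ * y = y * (x * y * x⁻¹ * y⁻¹))
    (hne : x * y ≠ y * x) (P : Sylow p G) : ∃ a ∈ (P : Subgroup G), ∃ b ∈ (P : Subgroup G), a * b ≠ b * a := by
  set z := x * y * x⁻¹ * y⁻¹ with hz
  have hzx : x * z * x⁻¹ = z := by rw [← h1, mul_inv_cancel_right]
  have hzy : y * z * y⁻¹ = z := by rw [← h2, mul_inv_cancel_right]
  have hxy : x * y * x⁻¹ = z * y := by rw [hz]; group
  have hp1 : ∀ g : G, g ^ p = 1 → IsPGroup p (Subgroup.zpowers g) := fun g hg => by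
    intro w
    refine ⟨1, ?_⟩
    obtain ⟨w, n, rfl⟩ := w
    apply Subtype.ext
    show (g ^ n) ^ p ^ 1 = 1
    rw [pow_one, ← zpow_natCast, ← zpow_mul, mul_comm, zpow_mul, zpow_natCast, hg, one_zpow]
  have hzp : z ^ p = 1 := by
    -- `z ^ n = x ^ n y x ^ -n y⁻¹`
    have h3 : ∀ n : ℕ, y * x⁻¹ ^ n = x⁻¹ ^ n * (z ^ n * y) := by
      intro n
      induction n with
      | zero => simp
      | succ n ih =>
        have e1 : y * x⁻¹ = x⁻¹ * (z * y) := by rw [hz]; group
        have e2 : z ^ n * x⁻¹ = x⁻¹ * z ^ n := by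
          have : Commute z x⁻¹ := (show Commute z x from h1).inv_right
          exact (this.pow_left n).eq
        calc y * x⁻¹ ^ (n + 1) = (y * x⁻¹ ^ n) * x⁻¹ := by rw [pow_succ, mul_assoc]
          _ = x⁻¹ ^ n * (z ^ n * y) * x⁻¹ := by rw [ih]
          _ = x⁻¹ ^ n * (z ^ n * (y * x⁻¹)) := by simp only [mul_assoc]
          _ = x⁻¹ ^ n * (z ^ n * x⁻¹ * (z * y)) := by rw [e1]; simp only [mul_assoc]
          _ = x⁻¹ ^ n * (x⁻¹ * z ^ n * (z * y)) := by rw [e2]
          _ = x⁻¹ ^ (n + 1) * (z ^ (n + 1) * y) := by rw [pow_succ, pow_succ]; simp only [mul_assoc]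
    have h4 := h3 p
    rw [inv_pow, hx, inv_one, mul_one, one_mul] at h4
    exact (mul_eq_right.1 h4.symm)
  have hnorm : ∀ (g : G) (A : Subgroup G), (∀ a ∈ A, g * a * g⁻¹ ∈ A) → g ^ p = 1 →
      Subgroup.zpowers g ≤ Subgroup.normalizer (A : Set G) := fun g A hA hg => by
    rw [Subgroup.zpowers_le, Subgroup.mem_normalizer_iff]
    have hn : ∀ (n : ℕ) (a : G), a ∈ A → g ^ n * a * (g ^ n)⁻¹ ∈ A := by
      intro n
      induction n with
      | zero => intro a ha; simpa using ha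
      | succ n ih =>
        intro a ha
        have e : g ^ (n + 1) * a * (g ^ (n + 1))⁻¹ = g ^ n * (g * a * g⁻¹) * (g ^ n)⁻¹ := by
          rw [pow_succ, mul_inv_rev]; simp only [mul_assoc]
        rw [e]
        exact ih _ (hA a ha)
    intro a
    refine ⟨hA a, fun ha => ?_⟩
    have e1 : g ^ (p - 1) = g⁻¹ := by
      have hpos : 0 < p := (Fact.out : p.Prime).pos
      rw [eq_inv_iff_mul_eq_one, ← pow_succ, Nat.sub_add_cancel hpos, hg]
    have h5 := hn (p - 1) _ ha
    rw [e1, inv_inv] at h5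
    have e2 : g⁻¹ * (g * a * g⁻¹) * g = a := by group
    rwa [e2] at h5
  have hA1 : ∀ a ∈ Subgroup.zpowers z, y * a * y⁻¹ ∈ Subgroup.zpowers z := by
    rintro a ⟨n, rfl⟩
    rw [← conj_zpow, hzy]
    exact ⟨n, rfl⟩
  have hA : IsPGroup p (Subgroup.zpowers y ⊔ Subgroup.zpowers z : Subgroup G) :=
    (hp1 y hy).to_sup_of_normal_right' (hp1 z hzp) (hnorm y _ hA1 hy)
  have hA2 : ∀ a ∈ (Subgroup.zpowers y ⊔ Subgroup.zpowers z : Subgroup G),
      x * a * x⁻¹ ∈ (Subgroup.zpowers y ⊔ Subgroup.zpowers z : Subgroup G) := by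
    have hle : (Subgroup.zpowers y ⊔ Subgroup.zpowers z : Subgroup G) ≤
        (Subgroup.zpowers y ⊔ Subgroup.zpowers z : Subgroup G).comap (MulAut.conj x).toMonoidHom := by
      rw [sup_le_iff, Subgroup.zpowers_le, Subgroup.zpowers_le]
      constructor
      · rw [Subgroup.mem_comap]
        show x * y * x⁻¹ ∈ (Subgroup.zpowers y ⊔ Subgroup.zpowers z : Subgroup G)
        rw [hxy]
        exact mul_mem (Subgroup.mem_sup_right (Subgroup.mem_zpowers z)) (Subgroup.mem_sup_left (Subgroup.mem_zpowers y))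
      · rw [Subgroup.mem_comap]
        show x * z * x⁻¹ ∈ (Subgroup.zpowers y ⊔ Subgroup.zpowers z : Subgroup G)
        rw [hzx]
        exact Subgroup.mem_sup_right (Subgroup.mem_zpowers z)
    exact fun a ha => hle ha
  have hB : IsPGroup p (Subgroup.zpowers x ⊔ (Subgroup.zpowers y ⊔ Subgroup.zpowers z) : Subgroup G) :=
    (hp1 x hx).to_sup_of_normal_right' hA (hnorm x _ hA2 hx)
  obtain ⟨Q, hQ⟩ := hB.exists_le_sylow
  have hxQ : x ∈ (Q : Subgroup G) := hQ (Subgroup.mem_sup_left (Subgroup.mem_zpowers x))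
  have hyQ : y ∈ (Q : Subgroup G) :=
    hQ (Subgroup.mem_sup_right (Subgroup.mem_sup_left (Subgroup.mem_zpowers y)))
  obtain ⟨g, hg⟩ := MulAction.exists_smul_eq G Q P
  have hc : ∀ a ∈ (Q : Subgroup G), g * a * g⁻¹ ∈ (P : Subgroup G) := fun a ha => by
    rw [← hg]
    exact Subgroup.smul_mem_pointwise_smul a (MulAut.conj g) _ ha
  refine ⟨_, hc x hxQ, _, hc y hyQ, fun e => hne ?_⟩
  have e1 : g * x * g⁻¹ * (g * y * g⁻¹) = g * (x * y) * g⁻¹ := by group
  have e2 : g * y * g⁻¹ * (g * x * g⁻¹) = g * (y * x) * g⁻¹ := by group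
  rw [e1, e2] at e
  exact mul_left_cancel (mul_right_cancel e)

/-- transport of the conclusion along an isomorphism -/
theorem nonab_congr {X Y : Type*} [Group X] [Finite X] [Group Y] [Finite Y] {p : ℕ} [Fact p.Prime] (e : X ≃* Y)
    (h : ∀ P : Sylow p Y, ∃ a ∈ (P : Subgroup Y), ∃ b ∈ (P : Subgroup Y), a * b ≠ b * a) (P : Sylow p X) :
    ∃ a ∈ (P : Subgroup X), ∃ b ∈ (P : Subgroup X), a * b ≠ b * a := by
  obtain ⟨a, ha, b, hb, hab⟩ := h (P.mapSurjective (f := e.toMonoidHom) e.surjective)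
  obtain ⟨a, ha, rfl⟩ := ha
  obtain ⟨b, hb, rfl⟩ := hb
  refine ⟨a, ha, b, hb, fun h => hab ?_⟩
  rw [← map_mul, ← map_mul, h]

section McL

open Cfsg.Agent.SporadicA Cfsg.Agent.SporadicStructure.Co0Matrix Cfsg.Agent.CoOneType.CoEval
open Cfsg.Agent.CoOneType.CoFast Cfsg.Agent.LThreeCo1.Ev Cfsg.Agent.H51.Mult
open Cfsg.Agent.H49.Stab Cfsg.Agent.H49.MatMcL Cfsg.Agent.H49.McLFive

theorem mcl5 {X : Type u} [Group X] [Finite X] (h : Cfsg.Spor.IsoMcL X) (P : Sylow 5 X) :
    ∃ x ∈ (P : Subgroup X), ∃ y ∈ (P : Subgroup X), x * y ≠ y * x := by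
  obtain ⟨e⟩ := h
  have : Finite Spor.McL := Finite.of_equiv X e.toEquiv
  have : Fact (Nat.Prime 5) := ⟨Nat.prime_five⟩
  refine nonab_congr e (fun P => ?_) P
  have W : ∀ {w w' : List ℕ}, eqB (xM M) w w' = true → (w.map mx).prod = (w'.map mx).prod := fun {w w'} h => by
    apply incM_injective
    rw [incM_word, incM_word]
    exact eq_of_eqB (xrep okM) h
  have N : ∀ {w w' : List ℕ}, neB' (xM M) w w' = true → (w.map mx).prod ≠ (w'.map mx).prod := fun {w w'} h h0 => by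
    apply ne_of_neB' (xrep okM) h
    rw [← incM_word, ← incM_word, h0]
  have hx : ∀ i < 32, mx (i + 32) = (mx i)⁻¹ := by
    intro i hi
    unfold mx
    rw [if_neg (by omega), if_pos hi, Nat.add_sub_cancel]
  have e33 : mx 33 = (mx 1)⁻¹ := hx 1 (by norm_num)
  have e34 : mx 34 = (mx 2)⁻¹ := hx 2 (by norm_num)
  have h1 : mx 1 ^ 5 = 1 := by
    have := W c1
    rwa [List.map_replicate, List.prod_replicate] at this
  have h2 : mx 2 ^ 5 = 1 := by
    have := W c2
    rwa [List.map_replicate, List.prod_replicate] at this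
  refine nonab_of h1 h2 ?_ ?_ ?_ P
  · have := W c3
    simp only [List.map_cons, List.map_nil, List.prod_cons, List.prod_nil, mul_one, e33, e34] at this
    simpa only [mul_assoc] using this
  · have := W c4
    simp only [List.map_cons, List.map_nil, List.prod_cons, List.prod_nil, mul_one, e33, e34] at this
    simpa only [mul_assoc] using this
  · have := N c5
    simpa only [List.map_cons, List.map_nil, List.prod_cons, List.prod_nil, mul_one] using this

end McL

section J4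

open Cfsg.Agent.Lib.F2MatGroup Cfsg.Agent.J4.Rep112 Cfsg.Agent.J4.Final Cfsg.Agent.H51.Mult
open Cfsg.Agent.H49.Form Cfsg.Agent.H49.JFourEleven

theorem j4_11 {X : Type u} [Group X] [Finite X] (h : Cfsg.Spor.IsoJ4 X) (P : Sylow 11 X) :
    ∃ x ∈ (P : Subgroup X), ∃ y ∈ (P : Subgroup X), x * y ≠ y * x := by
  obtain ⟨e⟩ := h
  have : Finite Spor.J4 := Finite.of_equiv X e.toEquiv
  have : Fact (Nat.Prime 11) := ⟨by norm_num⟩
  refine nonab_congr e (fun P => ?_) P
  obtain ⟨he, hn⟩ := facts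
  generalize runG ws gens = L at he hn
  have h1 := he _ (show ([3, 3, 3, 3, 3, 3, 3, 3, 3, 3, 3], []) ∈ es by simp [es])
  have h2 := he _ (show ([2, 2, 2, 2, 2, 2, 2, 2, 2, 2, 2], []) ∈ es by simp [es])
  have h4 := he _ (show ([1, 3], []) ∈ es by simp [es])
  have h5 := he _ (show ([0, 2], []) ∈ es by simp [es])
  have h6 := he _ (show ([3, 2, 1, 0, 3], [3, 3, 2, 1, 0]) ∈ es by simp [es])
  have h7 := he _ (show ([3, 2, 1, 0, 2], [2, 3, 2, 1, 0]) ∈ es by simp [es])
  have h10 := hn _ (show ([3, 2], [2, 3]) ∈ ns by simp [ns])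
  simp only [evG_cons, evG_nil, mul_one] at h1 h2 h4 h5 h6 h7 h10
  generalize getG L 3 = x at *
  generalize getG L 2 = y at *
  have hx : getG L 1 = x⁻¹ := eq_inv_of_mul_eq_one_left h4
  have hy : getG L 0 = y⁻¹ := eq_inv_of_mul_eq_one_left h5
  rw [hx, hy] at h6 h7
  have g1 : x ^ 11 = 1 := by rw [← h1]; simp only [pow_succ', pow_zero, mul_one]
  have g2 : y ^ 11 = 1 := by rw [← h2]; simp only [pow_succ', pow_zero, mul_one]
  exact nonab_of g1 g2 (by simpa only [mul_assoc] using h6) (by simpa only [mul_assoc] using h7) h10 P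

end J4

end Cfsg.Agent.H135.RK
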